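import Cfsg.Agent.Lib.Tame.MCBlock
import Cfsg.Agent.Lib.Modular.SubTwo
import Cfsg.Agent.Lib.Char.Product

/-!
# Counting lemmas for 2-blocks
-/

set_option autoImplicit false

namespace Cfsg.Lib.CY4

open _root_.Cfsg.Lib.Block Cfsg.Lib.Char Cfsg.Lib.Modular Cfsg.Lib.Tame Subgroup Prs Finset

variable {G : Type*} [Group G] [Fintype G] {M : Ideal AlgInt} [Modular 2 M]
  {B : Set (IrrCharacter G)} {ω₀ : Prs G 2 M} {z u : ω₀.grp} (hm : ω₀.IsMax B)
include hm

/-- A major subsection of rank one: `k₀ + 4 (k - k₀) ≤ |D|` (`exists_twoExp`, `sum_avgContr`,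
`avgContr_nonneg` + `odd_avgContr`, `pow_succ_le_avgContr`; `hm.blockDefect_blkAt`,
`hm.isInducedBlock_blkAt`, `hm.card_grp`). -/
theorem four_mul_card_le (hz : (z : G) ∈ centralizer (ω₀.grp : Set G))
    (hl : blockRank 2 (ω₀.blkAt z) = 1) : 4 * Nat.card B ≤ 3 * #(hzero B) + Nat.card ω₀.grp := by
  classical
  obtain ⟨n, ζ, y, h⟩ := exists_twoExp (ω₀.blkAt z) (pElt_coe z)
  have hb := hm.isInducedBlock_blkAt z
  have hd := hm.blockDefect_blkAt hz
  have h1 := h.sum_avgContr (pElt_coe z) hb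
  have h2 : ∑ _χ ∈ irrs B, (4 : ℤ) ≤ ∑ χ ∈ irrs B, ((if χ ∈ hzero B then 3 else 0) + avgContr (ω₀.blkAt z) n y χ) :=
    sum_le_sum fun χ hχ => by
      have hχ := mem_irrs.1 hχ
      by_cases h0 : blockHeight 2 B χ.1 = 0
      · have := h.odd_avgContr (pElt_coe z) hb hχ h0
        have := h.avgContr_nonneg χ
        rw [if_pos (mem_hzero.2 ⟨hχ, h0⟩)]; omega
      · rw [if_neg fun m => h0 (mem_hzero.1 m).2, zero_add]
        exact (pow_le_pow_right₀ one_le_two (by omega : 2 ≤ _)).trans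
          (h.pow_succ_le_avgContr (pElt_coe z) hb hd hχ h0)
  rw [sum_add_distrib, h1, hl, hd, sum_ite_mem, inter_eq_right.2 hzero_subset, sum_const, sum_const] at h2
  rw [card_eq_card_filter, hm.card_grp]
  zify
  simpa [mul_comm] using h2

theorem exists_sum_cls [Fintype ω₀.grp] {U Y : Finset ω₀.grp} (hU : ∀ u ∈ U, ∀ v, ω₀.Fus u v → v ∈ U)
    (l : Y ⊆ U) (hY : ∀ x ∈ Y, ∀ y ∈ Y, ω₀.Fus x y → x = y) : ∃ n : ℕ,
      ∑ v ∈ U, (ω₀.cls v : ℂ)⁻¹ * blockRank 2 (ω₀.blkAt v) = n ∧ ∑ y ∈ Y, blockRank 2 (ω₀.blkAt y) ≤ n := by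
  classical
  rcases U.eq_empty_or_nonempty with rfl | ⟨u, hu⟩
  · exact ⟨0, by simp, by simp [subset_empty.1 l]⟩
  obtain ⟨X, -, -, -, h1, h2⟩ := exists_transversal U hU hu
  choose! r h3 h4 using h1
  refine ⟨∑ x ∈ X, blockRank 2 (ω₀.blkAt x), by rw [h2 _ (stable_rk hm), Nat.cast_sum], ?_⟩
  rw [← sum_congr rfl fun y hy => hm.blockRank_eq_of_fus (h4 y (l hy)),
    ← sum_image (f := fun x => blockRank 2 (ω₀.blkAt x)) fun x hx y hy e =>
      hY x hx y hy ((h4 x (l hx)).symm.trans (by rw [show r x = r y from e]; exact h4 y (l hy)))]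
  exact sum_le_sum_of_subset (image_subset_iff.2 fun y hy => h3 y (l hy))

/-- Pairwise nonfused elements (`hm.card_eq_sum`, `exists_transversal`, `stable_rk`). -/
theorem sum_le_card (Y : Finset ω₀.grp) (hY : ∀ x ∈ Y, ∀ y ∈ Y, ω₀.Fus x y → x = y) :
    ∑ y ∈ Y, blockRank 2 (ω₀.blkAt y) ≤ Nat.card B := by
  have := Fintype.ofFinite ω₀.grp
  obtain ⟨n, h1, h2⟩ := exists_sum_cls hm (fun _ _ v _ => mem_univ v) (subset_univ Y) hY
  rwa [Nat.cast_injective (hm.card_eq_sum.trans h1)]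

/-- A fusion invariant subgroup `H` of index two missing the central element `z`: with the sign
character `l` of `H` the trace of `χ ↦ l * χ` is zero (the proof of `IsMax.sum_lf_mul`, using only
`l z ≠ 1`), so the classes inside `H` account for exactly half of `k(B)`. -/
theorem two_mul_sum_le_card {H : Subgroup G} (hH : H.relIndex ω₀.grp = 2)
    (hf : ∀ u v : ω₀.grp, ω₀.Fus u v → (u : G)⁻¹ * v ∈ H)
    (hz : (z : G) ∈ centralizer (ω₀.grp : Set G)) (hzH : (z : G) ∉ H) (Y : Finset ω₀.grp)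
    (hYH : ∀ y ∈ Y, (y : G) ∈ H) (hY : ∀ x ∈ Y, ∀ y ∈ Y, ω₀.Fus x y → x = y) :
    2 * ∑ y ∈ Y, blockRank 2 (ω₀.blkAt y) ≤ Nat.card B := by
  classical
  have := Fintype.ofFinite ω₀.grp
  have k : ∀ u v : ω₀.grp, ((u * v : ω₀.grp) : G) ∈ H ↔ ((u : G) ∈ H ↔ (v : G) ∈ H) := fun u v =>
    mul_mem_iff_of_index_two hH
  have k' : ∀ {u v}, ω₀.Fus u v → ((u : G) ∈ H ↔ (v : G) ∈ H) := fun e =>
    H.inv_mem_iff.symm.trans ((k _⁻¹ _).1 (hf _ _ e))
  let l : ω₀.grp →* ℂˣ := .mk' (fun u => if (u : G) ∈ H then 1 else -1) fun u v => by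
    by_cases a : (u : G) ∈ H <;> by_cases b : (v : G) ∈ H <;> simp [-Subgroup.coe_mul, -MulMemClass.coe_mul, k, a, b]
  have hl : ω₀.Stable (lf l) := fun u v e => by simp [l, k' e]
  have h0 : ∑ v, l v * ((ω₀.cls v : ℂ)⁻¹ * blockRank 2 (ω₀.blkAt v)) = 0 := by
    simp only [← hm.sum_sI_self, mul_sum]
    rw [sum_comm]
    refine sum_eq_zero fun χ hχ => ?_
    have hχ := (mem_filter.1 hχ).2
    refine (hm.classInner_bstar hl χ.2.isClassFunction (inSpan_of_mem hχ)
      χ.2.isClassFunction).symm.trans (irr_inner_of_ne (χ := ⟨_, hm.isIrrCharacter_bstar_lf hl χ⟩) fun e => ?_)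
    have := hm.apply_eq_one_of_bstar_eq hl χ.2.isClassFunction (congrArg Subtype.val e)
      (hm.sI_self_ne_zero_of_center hχ hz)
    norm_num [l, hzH] at this
  obtain ⟨n, h1, h2⟩ := exists_sum_cls hm (U := {v | (v : G) ∈ H}) (Y := Y)
    (fun u hu v e => mem_filter.2 ⟨mem_univ _, (k' e).1 (mem_filter.1 hu).2⟩)
    (fun y hy => mem_filter.2 ⟨mem_univ _, hYH y hy⟩) hY
  have h3 : (Nat.card B : ℂ) = (2 * n : ℕ) := by
    rw [← add_zero (Nat.card B : ℂ), ← h0, hm.card_eq_sum, ← sum_add_distrib, Nat.cast_mul, ← h1, sum_filter, mul_sum]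
    refine sum_congr rfl fun v _ => ?_
    by_cases a : (v : G) ∈ H <;> simp [l, a, two_mul]
  rw [Nat.cast_injective h3]; omega

/-- Olsson's bound from a nilpotent major subsection of an involution `z`: `exists_indLoc` for
`ω = ω₀.sec z` (its stabilizer is `C(z) = N(⟨z⟩)`), `η = ∑_λ λ(g) • lf λ` over `λ : D →* ℂˣ`,
`λ(g) = ±1`; `η u = ∑ λ(g u) = 0` unless `g u ∈ D'`; `⟨η, η⟩ = |D : D'|` (`card_hom_units`);
`⟨η, ξ⟩ = ±1` for linear `ξ`, `0` for the others, whose degree is even; `IndLoc.par` and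
`sum_co_sq`. -/
theorem card_hzero_le_index (hz : (z : G) ∈ centralizer (ω₀.grp : Set G)) (h1 : z ≠ 1)
    (h2 : z * z = 1) (hn : IsNilIn 2 M (centralizer {(z : G)}) (ω₀.sec z).idm) {g : ω₀.grp}
    (hg : g * g ∈ commutator ω₀.grp)
    (hs : ∀ u, g * u ∈ commutator ω₀.grp → (z : G) ∈ zpowers (u : G)) :
    #(hzero B) ≤ (commutator ω₀.grp).index := by
  classical
  have := Fintype.ofFinite ω₀.grp
  have := Fintype.ofFinite (ω₀.grp →* ℂˣ)
  have hC : centralizer {(z : G)} ≤ MulAction.stabilizer G (ω₀.sec z) := by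
    rw [← Block.centralizer_zpowers, ← grp_sec]; exact centralizer_le_stabilizer' _
  have hN : normalizer ((ω₀.sec z).grp : Set G) ≤ centralizer {(z : G)} := fun x hx => by
    rw [grp_sec] at hx
    obtain ⟨k, hk⟩ := mem_zpowers_iff.1 ((mem_normalizer_iff.1 hx z).1 (mem_zpowers _))
    have z2 : (z : G) ^ (2 : ℤ) = 1 := by rw [zpow_two]; exact congrArg Subtype.val h2
    obtain ⟨i, rfl | rfl⟩ := Int.even_or_odd' k
    · rw [zpow_mul, z2, one_zpow, eq_comm, conj_eq_one_iff] at hk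
      exact absurd (Subtype.ext hk) h1
    · rw [zpow_add_one, zpow_mul, z2, one_zpow, one_mul] at hk
      exact mem_centralizer_singleton_iff.2 (eq_mul_inv_iff_mul_eq.1 hk).symm
  obtain ⟨Φ, hΦ⟩ := exists_indLoc hm (sec_le z) (fun d hd => stabilizer_le_normalizer _
    (hC (mem_centralizer_singleton_iff.2 (hz d hd)))) (hN.trans hC) (by simpa [grp_sec] using h1)
    (le_antisymm hC ((stabilizer_le_normalizer _).trans hN) ▸ hn)
  have pm : ∀ l : ω₀.grp →* ℂˣ, (l g : ℂ) = 1 ∨ (l g : ℂ) = -1 := fun l => mul_self_eq_one_iff.1 (by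
    rw [← Units.val_mul, ← map_mul, Abelianization.commutator_subset_ker l hg, Units.val_one])
  let η : ω₀.grp → ℂ := ∑ l : ω₀.grp →* ℂˣ, (l g : ℂ) • lf l
  have ha : Adm ω₀ (ω₀.sec z) η := ⟨isGeneralizedCharacter_sum _ _ fun l _ => by
      have := (isIrrCharacter_lf l).isGeneralizedCharacter
      rcases pm l with e | e <;> rw [e]
      exacts [(one_smul ℂ (lf l)).symm ▸ this, (neg_one_smul ℂ (lf l)).symm ▸ this.neg], fun u hu => by
    rw [grp_sec, zpowers_le]
    refine hs u (by_contra fun n => hu ?_)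
    have := Fintype.ofFinite (Abelianization ω₀.grp →* ℂˣ)
    rw [← sum_lin_apply_eq_zero (y := Abelianization.of (g * u)) (mt (QuotientGroup.eq_one_iff _).1 n),
      ← Abelianization.lift.sum_comp]
    simp [η]⟩
  have h3 : ∀ l, classInner η (lf l) = l g := fun l => by
    simp [η, classInner_sum_left, classInner_smul_left, classInner_lf]
  have h4 : classInner η η = ((commutator ω₀.grp).index : ℤ) := by
    conv_lhs => rhs; unfold η
    rw [classInner_sum_right, sum_congr rfl (g := fun _ => 1) fun l _ => by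
      rw [classInner_smul_right, h3]; rcases pm l with e | e <;> simp [e]]
    simp [← card_hom_units]
  have h5 := hΦ.par η ha fun ξ => by
    obtain ⟨k, hk⟩ := (Nat.dvd_prime_pow Nat.prime_two).1 (hm.card_grp ▸ ξ.2.charDegree_dvd_card)
    have d := ξ.2.apply_one_eq
    rw [hk.2] at d
    rcases k with _ | k
    · obtain ⟨l, e⟩ := ξ.2.isCharacter.exists_hom_of_apply_one (by simpa using d)
      rw [d, show ξ.1 = lf l from e, h3]
      rcases pm l with e | e <;> rw [e]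
      exacts [⟨0, by simp⟩, ⟨-1, by norm_num⟩]
    · refine ⟨-2 ^ k, ?_⟩
      rw [classInner_sum_left, sum_eq_zero fun l _ => ?_, d]
      · push_cast; ring
      · rw [classInner_smul_left, show classInner (lf l) ξ = 0 from irr_inner_of_ne (χ := lfIrr l) fun e => ?_, mul_zero]
        rw [← e] at d
        have : ((2 ^ (k + 1) : ℕ) : ℂ) = (1 : ℕ) := by simpa [lfIrr] using d.symm
        simpa using Nat.cast_injective this
  have h6 := sum_co_sq (hΦ.gspan η ha) ((hΦ.inner η η ha ha).trans h4)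
  zify
  rw [← h6, card_eq_sum_ones, Nat.cast_sum]
  refine (sum_le_sum fun χ hχ => ?_).trans (sum_le_sum_of_subset_of_nonneg hzero_subset fun _ _ _ => sq_nonneg _)
  have := (not_dvd_co_iff (p := 2) (hΦ.gspan η ha).gen).2 ((h5 χ (mem_hzero.1 hχ).1).2 (mem_hzero.1 hχ).2)
  exact (one_le_sq_iff_one_le_abs _).2 (Int.one_le_abs fun e => this (e ▸ dvd_zero _))

omit hm in
theorem comm_of_index {R Z : Subgroup G} (l : Z ≤ R) (hc : Nat.card R ≤ 2 * Nat.card Z) {x q : G} (hq : q ∈ R)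
    (hq' : x * q * x⁻¹ ∈ R) (cx : x ∈ centralizer (Z : Set G)) (cq : q ∈ centralizer (Z : Set G))
    (ho : ¬ 2 ∣ orderOf x) : q * x = x * q := by
  by_cases m : q ∈ Z
  · exact cx q m
  have i : Z.relIndex R = 2 := by
    have a := (Z.subgroupOf R).card_mul_index
    have b : Z.relIndex R ≠ 1 := fun e => m (relIndex_eq_one.1 e hq)
    have c : Z.relIndex R ≠ 0 := index_ne_zero_of_finite
    rw [Nat.card_congr (subgroupOfEquivOfLe l).toEquiv, ← relIndex] at a
    have := Nat.le_of_mul_le_mul_left ((a.trans_le hc).trans_eq (mul_comm _ _)) Nat.card_pos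
    omega
  have k : ∀ {a b}, a ∈ R → b ∈ R → a ∉ Z → b ∉ Z → a * b ∈ Z := fun ha hb na nb =>
    (mul_mem_iff_of_index_two i (a := ⟨_, ha⟩) (b := ⟨_, hb⟩)).2 (iff_of_false na nb)
  have c := k (inv_mem hq) hq' (mt Z.inv_mem_iff.1 m) fun e => m (by
    have := cx _ e
    rw [inv_mul_cancel_right, mul_right_inj] at this
    rwa [← this] at e)
  obtain ⟨c, e, c1, c2⟩ : ∃ c, x * q = q * c * x ∧ c * x = x * c ∧ c * q = q * c :=
    ⟨_, by group, cx _ c, cq _ c⟩
  have c3 : q * q * (c * c) * x = q * q * x :=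
    calc _ = q * (q * c) * (c * x) := by simp only [mul_assoc]
      _ = q * (c * q) * (c * x) := by rw [c2]
      _ = q * c * (q * c * x) := by simp only [mul_assoc]
      _ = x * (q * q) := by rw [← e, ← mul_assoc, ← e, mul_assoc]
      _ = _ := (cx _ (k hq hq m m)).symm
  have c4 : Commute q (x * x) :=
    calc q * (x * x) = q * (c * c) * (x * x) := by rw [mul_eq_left.1 (mul_right_cancel c3), mul_one]
      _ = q * c * (c * x) * x := by simp only [mul_assoc]
      _ = x * q * c * x := by rw [c1, ← mul_assoc, ← e]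
      _ = x * (q * c * x) := by simp only [mul_assoc]
      _ = _ := by rw [← e, mul_assoc]
  obtain ⟨n, hn⟩ := Nat.odd_iff.2 (by omega : orderOf x % 2 = 1)
  have := c4.pow_right (n + 1)
  rwa [← sq, ← pow_mul, show 2 * (n + 1) = orderOf x + 1 by omega, pow_succ, pow_orderOf_eq_one, one_mul] at this

/-- If for all `v` fused to `u` the centralizer of `v` in `D` has order at most `2 * orderOf v`,
then `k₀ ≤ 2 * orderOf u`: `exists_fus_isDefIn`, `card_of_isDefIn_blkAt'`, rank one by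
`blockRank_blkAt_eq_one` (an odd order element centralizing `v` and normalizing `Q ⊔ ⟨v⟩`, in which
`⟨v⟩` has index `≤ 2`, centralizes it), `card_height_zero_le_or` with `t = 0`. -/
theorem card_hzero_le_of_small (h : ∀ v, ω₀.Fus u v →
    Nat.card ↥(ω₀.grp ⊓ centralizer {(v : G)}) ≤ 2 * orderOf (v : G)) :
    #(hzero B) ≤ 2 * orderOf (u : G) := by
  classical
  obtain ⟨v, h1, h2⟩ := exists_fus_isDefIn hm u
  have hl : blockRank 2 (ω₀.blkAt v) = 1 := blockRank_blkAt_eq_one hm fun w hw Q hQ x hx hN ho q hq => by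
    rw [← Block.centralizer_zpowers] at hx
    exact comm_of_index (zpowers_le.2 (mem_inf.2 ⟨w.2, mem_centralizer_singleton_iff.2 rfl⟩))
      (Nat.card_zpowers (w : G) ▸ h w (h1.trans hw)) (hQ hq) (hQ ((mem_normalizer_iff.1 hN q).1 hq)) hx
      (Block.centralizer_zpowers (w : G) ▸ (hQ hq).2) ho
  have h3 := (card_height_zero_le_or (pElt_coe v) (hm.isInducedBlock_blkAt v) 0).resolve_left (by simp)
  rw [hl, ← card_of_isDefIn_blkAt' h2] at h3
  rw [Inv.orderOf_eq_of_isConj h1.isConj]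
  exact le_trans (by simpa using h3) (h v h1)

end Cfsg.Lib.CY4
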