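import Cfsg.Agent.Lib.PGroup.Metacyclic

/-!
# The two nonmetacyclic families of 2-groups needed for S4544

`E = ⟨X, S, T⟩`, `A = ⟨X⟩ × ⟨S⟩ ≅ C_{2^{m+2}} × C_2` of index two, `S` central, `T² = 1`,
`T X T = X⁻¹ σ` with `σ ∈ {1, S}`.  `c = X^{2^{m+1}}`, `Z(E) = Ω₁(A) = {1, c, S, cS}`,
`E' = ⟨X² σ⟩` with involution `c' = (X² σ)^{2^m}`, `u = X^{2^m}`.
-/

set_option autoImplicit false

namespace Cfsg.Lib.CY4

open Subgroup

variable {G : Type*} [Group G]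

/-- The abelian subgroup of index two. -/
abbrev AA (X S : G) : Subgroup G := zpowers X ⊔ zpowers S

/-- The involution of the derived group. -/
abbrev cc (X σ : G) (m : ℕ) : G := (X ^ 2 * σ) ^ 2 ^ m

/-- `E = ⟨X, S, T⟩` is `D_{2^{m+3}} × C_2` (`σ = 1`) or `D_{2^{m+2}} ⋊ C_4` (`σ = S`). -/
structure W (E : Subgroup G) (X S T σ : G) (m : ℕ) : Prop where
  ord : orderOf X = 2 ^ (m + 2)
  S2 : S * S = 1
  SX : S ∉ zpowers X
  XS : X * S = S * X
  TS : T * S = S * T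
  T2 : T * T = 1
  nT : T ∉ AA X S
  hσ : σ = 1 ∨ σ = S
  TX : T * X * T = X⁻¹ * σ
  gen : AA X S ⊔ zpowers T = E

theorem inv_zpowers {g a : G} {k : ℕ} (o : orderOf g = 2 ^ (k + 1)) (ha : a ∈ zpowers g) (h2 : a * a = 1) :
    a = 1 ∨ a = g ^ 2 ^ k := by
  obtain ⟨i, rfl⟩ := ha
  have c : (g ^ 2 ^ k) ^ (2 : ℤ) = 1 := by
    rw [zpow_ofNat, ← pow_mul, ← pow_succ, ← o, pow_orderOf_eq_one]
  rw [← zpow_add, ← orderOf_dvd_iff_zpow_eq_one, o, ← mul_two, pow_succ, Nat.cast_mul] at h2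
  obtain ⟨j, rfl⟩ := Int.dvd_of_mul_dvd_mul_right (by decide) h2
  simp only [zpow_mul, zpow_natCast]
  obtain ⟨t, rfl | rfl⟩ := Int.even_or_odd' j
  · exact .inl (by rw [zpow_mul, c, one_zpow])
  · exact .inr (by rw [zpow_add, zpow_mul, c, one_zpow, one_mul, zpow_one])

theorem card_two {H K : Subgroup G} {t : G} (l : H ≤ K) (ht : t ∈ K) (n : t ∉ H) (e : ∀ x ∈ K, x * t ∈ H ∨ x ∈ H) :
    Nat.card K = Nat.card H * 2 := by
  rw [← (H.subgroupOf K).card_mul_index, Nat.card_congr (subgroupOfEquivOfLe l).toEquiv,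
    (index_eq_two_iff_exists_notMem_and (H := H.subgroupOf K)).2 ⟨⟨t, ht⟩, n, fun b => e b b.2⟩]

namespace W

variable {E : Subgroup G} {X S T σ a b s x y : G} {m : ℕ} (h : W E X S T σ m)
include h

theorem map {H : Type*} [Group H] {f : G →* H} (hf : Function.Injective f) :
    W (E.map f) (f X) (f S) (f T) (f σ) m := by
  have a : (AA X S).map f = AA (f X) (f S) := by rw [Subgroup.map_sup, f.map_zpowers, f.map_zpowers]
  refine ⟨(orderOf_injective f hf X).trans h.ord, by rw [← map_mul, h.S2, map_one], fun e => h.SX ?_,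
    by rw [← map_mul, h.XS, map_mul], by rw [← map_mul, h.TS, map_mul], by rw [← map_mul, h.T2, map_one],
    fun e => h.nT ((mem_map_iff_mem hf).1 (a ▸ e)), h.hσ.imp (fun e => by rw [e, map_one]) (congrArg f),
    by rw [← map_mul, ← map_mul, h.TX, map_mul, map_inv], by rw [← h.gen, Subgroup.map_sup, a, f.map_zpowers]⟩
  rwa [← f.map_zpowers, mem_map_iff_mem hf] at e

omit h in
theorem XA (X S : G) : X ∈ AA X S := mem_sup_left (mem_zpowers X)

omit h in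
theorem SA (X S : G) : S ∈ AA X S := mem_sup_right (mem_zpowers S)

theorem σA : σ ∈ AA X S :=
  h.hσ.elim (fun e => by rw [e]; exact one_mem _) fun e => by rw [e]; exact SA X S

theorem A_le : AA X S ≤ E := h.gen ▸ le_sup_left

theorem XE : X ∈ E := h.A_le (XA X S)

theorem SE : S ∈ E := h.A_le (SA X S)

theorem TE : T ∈ E := h.gen ▸ mem_sup_right (mem_zpowers T)

theorem cXS : Commute X S := h.XS

theorem cXσ : Commute X σ := h.hσ.elim (fun e => by rw [e]; exact .one_right X) fun e => by rw [e]; exact h.XS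

theorem σ2 : σ * σ = 1 := h.hσ.elim (fun e => by rw [e, one_mul]) fun e => by rw [e, h.S2]

theorem σ_even (i : ℤ) : σ ^ (2 * i) = 1 := by rw [zpow_mul, zpow_two, h.σ2, one_zpow]

theorem σ_zpow (i : ℤ) : σ ^ i = 1 ∨ σ = S ∧ σ ^ i = S := by
  rcases h.hσ with e | e
  · exact .inl (by rw [e, one_zpow])
  obtain ⟨t, rfl | rfl⟩ := Int.even_or_odd' i
  · exact .inl (h.σ_even t)
  · exact .inr ⟨e, by rw [zpow_add, h.σ_even, one_mul, zpow_one, e]⟩

theorem σ_neg (i : ℤ) : σ ^ (-i) = σ ^ i := by rw [← inv_zpow', inv_eq_of_mul_eq_one_right h.σ2]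

theorem T_inv : T⁻¹ = T := inv_eq_of_mul_eq_one_right h.T2

theorem TT (x : G) : T * (T * x) = x := by rw [← mul_assoc, h.T2, one_mul]

theorem SS (x : G) : S * (S * x) = x := by rw [← mul_assoc, h.S2, one_mul]

theorem S_zpow (i : ℤ) (x : G) : S * (X ^ i * x) = X ^ i * (S * x) := (h.cXS.zpow_left i).symm.left_comm x

theorem T_mul_S (a : G) : T * (a * S) * T = T * a * T * S := by simp only [mul_assoc, h.TS]

theorem sq_mul_S (i : ℤ) : X ^ i * S * (X ^ i * S) = X ^ i * X ^ i := by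
  rw [mul_assoc, h.S_zpow, h.S2, mul_one]

theorem zpow_eq_one_iff {i : ℤ} : X ^ i = 1 ↔ (2 : ℤ) ^ (m + 2) ∣ i := by
  rw [← orderOf_dvd_iff_zpow_eq_one, h.ord, Nat.cast_pow, Nat.cast_ofNat]

theorem mem_A : a ∈ AA X S ↔ ∃ i : ℤ, a = X ^ i ∨ a = X ^ i * S := by
  refine ⟨fun ha => ?_, fun ⟨i, e⟩ => e.elim (fun e => e ▸ zpow_mem (XA X S) i)
    fun e => e ▸ mul_mem (zpow_mem (XA X S) i) (SA X S)⟩
  let K : Subgroup G :=
    { carrier := {a | ∃ i : ℤ, a = X ^ i ∨ a = X ^ i * S}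
      one_mem' := ⟨0, .inl (zpow_zero X).symm⟩
      mul_mem' := by
        rintro _ _ ⟨i, rfl | rfl⟩ ⟨j, rfl | rfl⟩ <;> refine ⟨i + j, ?_⟩ <;> rw [zpow_add]
        · exact .inl rfl
        · exact .inr (mul_assoc _ _ _).symm
        · exact .inr (by rw [mul_assoc, mul_assoc, (h.cXS.zpow_left j).eq])
        · exact .inl (by rw [mul_assoc, h.S_zpow, h.S2, mul_one])
      inv_mem' := by
        rintro _ ⟨i, rfl | rfl⟩ <;> refine ⟨-i, ?_⟩
        · exact .inl (zpow_neg _ _).symm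
        · exact .inr (by rw [mul_inv_rev, inv_eq_of_mul_eq_one_right h.S2, ← zpow_neg, (h.cXS.zpow_left _).eq]) }
  exact (sup_le (zpowers_le.2 ⟨1, .inl (zpow_one X).symm⟩) (zpowers_le.2 ⟨0, .inr (by simp)⟩) : AA X S ≤ K) ha

theorem comm_A (ha : a ∈ AA X S) (hb : b ∈ AA X S) : a * b = b * a := by
  have k (i j : ℤ) := Commute.zpow_zpow_self X i j
  have c (i : ℤ) := h.cXS.zpow_left i
  obtain ⟨i, rfl | rfl⟩ := h.mem_A.1 ha <;> obtain ⟨j, rfl | rfl⟩ := h.mem_A.1 hb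
  exacts [k i j, (k i j).mul_right (c i), (k i j).mul_left (c j).symm,
    ((k i j).mul_right (c i)).mul_left ((c j).symm.mul_right (.refl S))]

theorem T_zpow (i : ℤ) : T * X ^ i * T = X ^ (-i) * σ ^ i := by
  have := conj_zpow (i := i) (a := T) (b := X)
  rw [h.T_inv] at this
  rw [← this, h.TX, h.cXσ.inv_left.mul_zpow, inv_zpow']

theorem conj_A (ha : a ∈ AA X S) : T * a * T ∈ AA X S := by
  have k (i : ℤ) : T * X ^ i * T ∈ AA X S := h.T_zpow i ▸ mul_mem (zpow_mem (XA X S) _) (zpow_mem h.σA _)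
  obtain ⟨i, rfl | rfl⟩ := h.mem_A.1 ha
  exacts [k i, h.T_mul_S _ ▸ mul_mem (k i) (SA X S)]

theorem mem_E : x ∈ E ↔ x ∈ AA X S ∨ ∃ a ∈ AA X S, x = a * T := by
  refine ⟨fun hx => ?_, fun e => e.elim (fun e => h.A_le e) fun ⟨a, ha, e⟩ => e ▸ mul_mem (h.A_le ha) h.TE⟩
  let K : Subgroup G :=
    { carrier := {x | x ∈ AA X S ∨ ∃ a ∈ AA X S, x = a * T}
      one_mem' := .inl (one_mem _)
      mul_mem' := by
        rintro x y (hx | ⟨a, ha, rfl⟩) (hy | ⟨b, hb, rfl⟩)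
        · exact .inl (mul_mem hx hy)
        · exact .inr ⟨_, mul_mem hx hb, (mul_assoc _ _ _).symm⟩
        · exact .inr ⟨_, mul_mem ha (h.conj_A hy), by simp only [mul_assoc, h.T2, mul_one]⟩
        · exact .inl (by simpa only [mul_assoc] using mul_mem ha (h.conj_A hb))
      inv_mem' := by
        rintro x (hx | ⟨a, ha, rfl⟩)
        · exact .inl (inv_mem hx)
        · exact .inr ⟨_, h.conj_A (inv_mem ha), by simp only [mul_inv_rev, h.T_inv, mul_assoc, h.T2, mul_one]⟩ }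
  exact (sup_le (fun _ ha => .inl ha) (zpowers_le.2 (.inr ⟨1, one_mem _, (one_mul T).symm⟩)) : AA X S ⊔ zpowers T ≤ K)
    (h.gen.ge hx)

theorem out (hx : x ∈ E) (n : x ∉ AA X S) : ∃ a ∈ AA X S, x = a * T :=
  (h.mem_E.1 hx).resolve_left n

theorem mul_T_not (ha : a ∈ AA X S) : a * T ∉ AA X S := fun e =>
  h.nT ((mul_mem_cancel_left ha).1 e)

theorem mul_out (hx : x ∈ E) (nx : x ∉ AA X S) (hy : y ∈ E) (ny : y ∉ AA X S) :
    x * y ∈ AA X S := by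
  obtain ⟨a, ha, rfl⟩ := h.out hx nx
  obtain ⟨b, hb, rfl⟩ := h.out hy ny
  simpa only [mul_assoc] using mul_mem ha (h.conj_A hb)

theorem conj_out (hx : x ∈ E) (nx : x ∉ AA X S) (ha : a ∈ AA X S) :
    x * a * x⁻¹ = T * a * T := by
  obtain ⟨b, hb, rfl⟩ := h.out hx nx
  rw [mul_inv_rev, h.T_inv, ← mul_assoc, mul_inv_eq_iff_eq_mul, ← h.comm_A hb (h.conj_A ha)]
  simp only [mul_assoc]

theorem conj_cases (hs : s ∈ E) (ha : a ∈ AA X S) :
    s * a * s⁻¹ = a ∨ s * a * s⁻¹ = T * a * T := by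
  by_cases n : s ∈ AA X S
  · exact .inl (by rw [h.comm_A n ha, mul_inv_cancel_right])
  · exact .inr (h.conj_out hs n ha)

theorem conj_mem_A_iff (hs : s ∈ E) : s * x * s⁻¹ ∈ AA X S ↔ x ∈ AA X S := by
  have k {s x} (hs : s ∈ E) (ha : x ∈ AA X S) : s * x * s⁻¹ ∈ AA X S :=
    (h.conj_cases hs ha).elim (fun e => e.symm ▸ ha) fun e => e.symm ▸ h.conj_A ha
  exact ⟨fun e => by simpa [mul_assoc] using k (inv_mem hs) e, k hs⟩

theorem c2 : X ^ 2 ^ (m + 1) * X ^ 2 ^ (m + 1) = 1 := by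
  rw [← pow_add, ← mul_two, ← pow_succ, ← h.ord, pow_orderOf_eq_one]

theorem c_ne_one : X ^ 2 ^ (m + 1) ≠ 1 :=
  pow_ne_one_of_lt_orderOf (by positivity) (h.ord ▸ Nat.pow_lt_pow_right one_lt_two (by omega))

theorem S_ne_one : S ≠ 1 := fun e => h.SX (e ▸ one_mem _)

/-- The involution of `⟨X⟩`. -/
theorem eq_c (ha : a ∈ zpowers X) (h2 : a * a = 1) : a = 1 ∨ a = X ^ 2 ^ (m + 1) :=
  inv_zpowers h.ord ha h2

theorem inv_A (ha : a ∈ AA X S) : a * a = 1 ↔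
    a = 1 ∨ a = X ^ 2 ^ (m + 1) ∨ a = S ∨ a = X ^ 2 ^ (m + 1) * S := by
  constructor
  · intro e
    obtain ⟨i, rfl | rfl⟩ := h.mem_A.1 ha
    · exact (h.eq_c ⟨i, rfl⟩ e).imp_right .inl
    · rcases h.eq_c (a := X ^ i) ⟨i, rfl⟩ ((h.sq_mul_S i).symm.trans e) with e | e
      exacts [.inr (.inr (.inl (by rw [e, one_mul]))), .inr (.inr (.inr (by rw [e])))]
  · rintro (rfl | rfl | rfl | rfl)
    exacts [one_mul 1, h.c2, h.S2, by rw [← zpow_natCast, h.sq_mul_S, zpow_natCast, h.c2]]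

/-- `Ω₁(A)` is central. -/
theorem cen (ha : a ∈ AA X S) (h2 : a * a = 1) (hx : x ∈ E) : x * a = a * x := by
  have c : T * X ^ 2 ^ (m + 1) = X ^ 2 ^ (m + 1) * T := by
    have := h.T_zpow (2 ^ (m + 1) : ℕ)
    rw [zpow_neg, zpow_natCast, inv_eq_of_mul_eq_one_right h.c2, pow_succ', Nat.cast_mul, Nat.cast_ofNat, h.σ_even, mul_one,
      ← pow_succ'] at this
    rw [← mul_inv_eq_iff_eq_mul, h.T_inv, this]
  have t : T * a = a * T := by
    rcases (h.inv_A ha).1 h2 with rfl | rfl | rfl | rfl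
    exacts [by rw [mul_one, one_mul], c, h.TS, by rw [← mul_assoc, c, mul_assoc, h.TS, mul_assoc]]
  rcases h.mem_E.1 hx with hx | ⟨b, hb, rfl⟩
  · exact h.comm_A hx ha
  · rw [mul_assoc, t, ← mul_assoc, h.comm_A hb ha, mul_assoc]

theorem fix_iff (ha : a ∈ AA X S) : T * a * T = a ↔ a * a = 1 := by
  refine ⟨fun e => ?_, fun e => by rw [h.cen ha e h.TE, mul_assoc, h.T2, mul_one]⟩
  have k (i : ℤ) (e : T * X ^ i * T = X ^ i) : X ^ i * X ^ i = 1 := by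
    rw [h.T_zpow, zpow_neg, inv_mul_eq_iff_eq_mul] at e
    rcases h.σ_zpow i with e' | ⟨-, e'⟩
    · exact e.symm.trans e'
    · exact (h.SX (e'.symm.trans e ▸ mul_mem ⟨i, rfl⟩ ⟨i, rfl⟩)).elim
  obtain ⟨i, rfl | rfl⟩ := h.mem_A.1 ha
  · exact k i e
  · rw [h.T_mul_S] at e
    exact (h.sq_mul_S i).trans (k i (mul_right_cancel e))

theorem sq_A (ha : a ∈ AA X S) : a * a ∈ zpowers X := by
  obtain ⟨i, rfl | rfl⟩ := h.mem_A.1 ha
  exacts [mul_mem ⟨i, rfl⟩ ⟨i, rfl⟩, h.sq_mul_S i ▸ mul_mem ⟨i, rfl⟩ ⟨i, rfl⟩]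

theorem sq_out (hx : x ∈ E) (nx : x ∉ AA X S) : x * x = 1 ∨ σ = S ∧ x * x = S := by
  obtain ⟨a, ha, rfl⟩ := h.out hx nx
  rw [show a * T * (a * T) = a * (T * a * T) by simp only [mul_assoc]]
  obtain ⟨i, rfl | rfl⟩ := h.mem_A.1 ha
  · rw [h.T_zpow, zpow_neg, mul_inv_cancel_left]
    exact h.σ_zpow i
  · rw [h.T_mul_S, h.comm_A (h.conj_A (zpow_mem (XA X S) i)) (SA X S), mul_assoc, h.SS, h.T_zpow, zpow_neg, mul_inv_cancel_left]
    exact h.σ_zpow i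

theorem der_zpow (i : ℤ) : (X ^ 2 * σ) ^ i = X ^ (2 * i) * σ ^ i := by
  rw [(h.cXσ.pow_left 2).mul_zpow, zpow_mul, zpow_ofNat]

theorem cc_cases : cc X σ m = X ^ 2 ^ (m + 1) ∨ cc X σ m = X ^ 2 ^ (m + 1) * S := by
  rw [cc, (h.cXσ.pow_left 2).mul_pow, ← pow_mul, ← pow_succ', ← zpow_natCast σ]
  exact (h.σ_zpow _).imp (fun e => by rw [e, mul_one]) fun e => by rw [e.2]

theorem der_eq (i : ℤ) : X ^ i * (T * (X ^ i)⁻¹ * T) = (X ^ 2 * σ) ^ i := by
  rw [← zpow_neg, h.T_zpow, neg_neg, h.σ_neg, h.der_zpow, two_mul, zpow_add, mul_assoc]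

theorem ord_der : orderOf (X ^ 2 * σ) = 2 ^ (m + 1) := by
  refine orderOf_eq_prime_pow (fun e => ?_) ?_
  · rcases h.cc_cases with e' | e'
    · exact h.c_ne_one (e'.symm.trans e)
    · exact h.SX (eq_inv_of_mul_eq_one_right (e'.symm.trans e) ▸ inv_mem (pow_mem (mem_zpowers X) _))
  · rw [(h.cXσ.pow_left 2).mul_pow, ← pow_mul, ← pow_succ', ← h.ord, pow_orderOf_eq_one, one_mul, pow_succ', pow_mul, sq,
      h.σ2, one_pow]

theorem comm_mem (hx : x ∈ E) (hy : y ∈ E) : x * y * x⁻¹ * y⁻¹ ∈ zpowers (X ^ 2 * σ) := by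
  have k {x y} (hx : x ∈ AA X S) (hy : y ∈ E) (ny : y ∉ AA X S) : x * y * x⁻¹ * y⁻¹ ∈ zpowers (X ^ 2 * σ) := by
    rw [mul_assoc x, mul_assoc x, h.conj_out hy ny (inv_mem hx)]
    obtain ⟨i, rfl | rfl⟩ := h.mem_A.1 hx
    · exact ⟨i, (h.der_eq i).symm⟩
    · refine ⟨i, (h.der_eq i).symm.trans ?_⟩
      simp only [mul_inv_rev, inv_eq_of_mul_eq_one_right h.S2, mul_assoc]
      rw [← mul_assoc T S, h.TS, mul_assoc, h.SS]
  by_cases nx : x ∈ AA X S <;> by_cases ny : y ∈ AA X S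
  · rw [h.comm_A nx ny, mul_inv_cancel_right, mul_inv_cancel]
    exact one_mem _
  · exact k nx hy ny
  · simpa [mul_assoc] using inv_mem (k ny hx nx)
  · simpa [mul_assoc] using k (h.mul_out hx nx hy ny) (inv_mem hx) fun e => nx (inv_mem_iff.1 e)

theorem S_not_der : S ∉ zpowers (X ^ 2 * σ) := by
  rintro ⟨i, e⟩
  simp only [h.der_zpow] at e
  rcases h.σ_zpow i with e' | ⟨-, e'⟩
  · exact h.SX ⟨_, by rwa [e', mul_one] at e⟩
  · rw [e', mul_eq_right, h.zpow_eq_one_iff, pow_succ', pow_succ'] at e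
    obtain ⟨j, rfl⟩ := (Dvd.intro _ rfl).trans (Int.dvd_of_mul_dvd_mul_left (by decide) e)
    exact h.S_ne_one (e'.symm.trans (h.σ_even j))

theorem ccA : cc X σ m ∈ AA X S :=
  pow_mem (mul_mem (pow_mem (XA X S) 2) h.σA) _

theorem cc2 : cc X σ m * cc X σ m = 1 := by
  rw [cc, ← pow_add, ← mul_two, ← pow_succ, ← h.ord_der, pow_orderOf_eq_one]

theorem cc_ne_one : cc X σ m ≠ 1 :=
  pow_ne_one_of_lt_orderOf (by positivity) (h.ord_der ▸ Nat.pow_lt_pow_right one_lt_two (by omega))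

theorem cc_ne_S : cc X σ m ≠ S := fun e => h.S_not_der (e ▸ pow_mem (mem_zpowers _) _)

theorem eq_cc (ha : a ∈ zpowers (X ^ 2 * σ)) (h2 : a * a = 1) : a = 1 ∨ a = cc X σ m :=
  inv_zpowers h.ord_der ha h2

/-- `Ω₁(A) = {1, c', S, c'S}`. -/
theorem inv_A' (ha : a ∈ AA X S) : a * a = 1 ↔
    a = 1 ∨ a = cc X σ m ∨ a = S ∨ a = cc X σ m * S := by
  rw [h.inv_A ha]
  rcases h.cc_cases with e | e <;> rw [e]
  rw [mul_assoc, h.S2, mul_one]
  tauto

/-- Conjugation by `u = X^{2^m}` outside `A`. -/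
theorem u_conj (hx : x ∈ E) (nx : x ∉ AA X S) :
    X ^ 2 ^ m * x * (X ^ 2 ^ m)⁻¹ = cc X σ m * x := by
  have := h.conj_out hx nx (inv_mem (pow_mem (XA X S) (2 ^ m)))
  rw [mul_assoc, mul_inv_eq_iff_eq_mul.1 this, ← mul_assoc, cc, ← zpow_natCast, ← zpow_natCast, h.der_eq]

/-- The centralizer of an element outside `A` is `Ω₁(A)⟨x⟩`. -/
theorem cent_out (hx : x ∈ E) (nx : x ∉ AA X S) (hy : y ∈ E) (e : y * x = x * y) :
    ∃ z ∈ AA X S, z * z = 1 ∧ (y = z ∨ y = z * x) := by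
  have k {z} (hz : z ∈ AA X S) (e : z * x = x * z) : z * z = 1 :=
    (h.fix_iff hz).1 (by rw [← h.conj_out hx nx hz, ← e, mul_inv_cancel_right])
  by_cases ny : y ∈ AA X S
  · exact ⟨y, ny, k ny e, .inl rfl⟩
  · have := h.mul_out hy ny (inv_mem hx) fun e => nx (inv_mem_iff.1 e)
    exact ⟨_, this, k this (by rw [inv_mul_cancel_right, ← mul_assoc, ← e, mul_inv_cancel_right]),
      .inr (inv_mul_cancel_right _ _).symm⟩

theorem card_A : Nat.card (AA X S) = 2 ^ (m + 3) := by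
  rw [card_two (le_sup_left : zpowers X ≤ AA X S) (SA X S) h.SX fun x hx => ?_, Nat.card_zpowers, h.ord, ← pow_succ]
  obtain ⟨i, rfl | rfl⟩ := h.mem_A.1 hx
  exacts [.inr ⟨i, rfl⟩, .inl ⟨i, by rw [mul_assoc, h.S2, mul_one]⟩]

theorem card_E : Nat.card E = 2 ^ (m + 4) := by
  rw [card_two h.A_le h.TE h.nT fun x hx => ?_, h.card_A, ← pow_succ]
  rcases h.mem_E.1 hx with hx | ⟨a, ha, rfl⟩
  exacts [.inr hx, .inl (by rwa [mul_assoc, h.T2, mul_one])]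

theorem pgrp : IsPGroup 2 E := .of_card h.card_E

theorem commutator_eq : ⁅E, E⁆ = zpowers (X ^ 2 * σ) := by
  refine le_antisymm (commutator_le.2 fun x hx y hy => h.comm_mem hx hy) (zpowers_le.2 ?_)
  have := h.der_eq 1
  rw [zpow_one, zpow_one] at this
  rw [← this]
  simpa only [commutatorElement_def, h.T_inv, mul_assoc] using commutator_mem_commutator h.XE h.TE

end W

end Cfsg.Lib.CY4
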