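import Cfsg.Agent.Lib.CY4.Def

/-!
# 2-groups with a cyclic subgroup of index at most four
-/

set_option autoImplicit false

namespace Cfsg.Lib.CY4

open Subgroup

universe u

variable {P : Type u} [Group P] [Finite P] {x : P}

theorem gp_half {N H : Subgroup P} (l : N ≤ H) {g : P} (m : g ∈ H) (n : g ∉ N) : 2 * H.index ≤ N.index := by
  have a : N.relIndex H ≠ 1 := fun e => n (relIndex_eq_one.1 e m)
  have b : N.relIndex H ≠ 0 := index_ne_zero_of_finite
  rw [← relIndex_mul_index l]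
  exact Nat.mul_le_mul_right _ (by omega)

theorem gp_gen (h : (zpowers x).index = 4) {H K : Subgroup P} {a b : P} (xH : x ∈ H) (aH : a ∈ H) (bH : b ∈ H) (xK : x ∈ K)
    (aK : a ∈ K) (n : a ∉ zpowers x) (n' : b ∉ K) : H = ⊤ := by
  have c := gp_half (H := H ⊓ K) (zpowers_le.2 ⟨xH, xK⟩) ⟨aH, aK⟩ n
  have d := gp_half (inf_le_left : H ⊓ K ≤ H) bH fun e => n' e.2
  have := H.index_ne_zero_of_finite
  exact index_eq_one.1 (by omega)

omit [Finite P] in
theorem gp_two (h : (zpowers x).index = 4) : ¬ ∀ g ∉ zpowers x, ∀ g' ∉ zpowers x, g * g' ∈ zpowers x := fun H => by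
  obtain ⟨a, n⟩ : ∃ a, a ∉ zpowers x := by
    by_contra! c
    rw [(eq_top_iff' _).2 c, index_top] at h
    omega
  have := index_eq_two_iff_exists_notMem_and.2 ⟨a, n, fun b => (em (b ∈ zpowers x)).symm.imp_left fun e => H b e a n⟩
  omega

theorem gp_inv {a b : P} (ha : a ∈ zpowers x) (hb : b ∈ zpowers x) (a2 : a * a = 1) (b2 : b * b = 1) (b1 : b ≠ 1) :
    a = 1 ∨ a = b := by
  classical
  have := Fintype.ofFinite P
  by_contra! c
  have := (Finset.card_le_card (s := {1, ⟨a, ha⟩, ⟨b, hb⟩}) fun y m => ?_).trans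
    (IsCyclic.card_pow_eq_one_le (α := zpowers x) two_pos)
  · rw [Finset.card_eq_three.2 ⟨_, _, _, by simpa [Subtype.ext_iff] using c.1.symm, by simpa [Subtype.ext_iff] using b1.symm,
      by simpa using c.2, rfl⟩] at this
    omega
  · simp only [Finset.mem_insert, Finset.mem_singleton] at m
    rcases m with rfl | rfl | rfl <;> simp [pow_two, Subtype.ext_iff, a2, b2]

omit [Finite P] in
theorem gp_odd (hP : IsPGroup 2 P) {k : ℤ} (hk : Odd k) (x : P) : x ∈ zpowers (x ^ k) := by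
  obtain ⟨n, e⟩ := hP.exists_orderOf_eq_pow x
  rw [mem_zpowers_zpow_iff, e, ← Int.isCoprime_iff_gcd_eq_one]
  push_cast
  exact (Int.isCoprime_two_right.2 hk).pow_right

omit [Finite P] in
theorem gp_invol (hP : IsPGroup 2 P) {d : P} (h : d ≠ 1) : ∃ w ∈ zpowers d, w * w = 1 ∧ w ≠ 1 := by
  obtain ⟨n, e⟩ := hP.exists_orderOf_eq_pow d
  rcases n with _ | n
  · exact absurd (orderOf_eq_one_iff.1 e) h
  refine ⟨d ^ 2 ^ n, pow_mem (mem_zpowers d) _, by rw [← pow_add, ← mul_two, ← pow_succ, ← e, pow_orderOf_eq_one],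
    pow_ne_one_of_lt_orderOf (by positivity) ?_⟩
  rw [e]
  exact Nat.pow_lt_pow_right one_lt_two n.lt_succ_self

theorem gp_num {n : ℕ} {k : ℤ} (h : (2 : ℤ) ^ n ∣ (k - 1) * (k + 1)) : (2 : ℤ) ^ n ∣ 2 * (k - 1) ∨ (2 : ℤ) ^ n ∣ 2 * (k + 1) := by
  have c : ∀ {a b : ℤ}, Odd a → (2 : ℤ) ^ n ∣ a * b → (2 : ℤ) ^ n ∣ b := fun o d =>
    (Int.isCoprime_two_left.2 o).pow_left.dvd_of_dvd_mul_left d
  rcases Int.even_or_odd' k with ⟨m, rfl | rfl⟩
  · exact .inr ((c ⟨m - 1, by ring⟩ h).mul_left 2)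
  rcases Int.even_or_odd m with e | e
  · exact .inl (c (e.add_one) (by convert h using 1; ring))
  · exact .inr (c e (by convert h using 1; ring))

theorem gp_norm {a b : P} (h : b * a * b⁻¹ ∈ zpowers a) : b ∈ normalizer (zpowers a : Set P) :=
  mem_normalizer_fintype (by rintro _ ⟨k, rfl⟩; exact conj_zpow (i := k) (a := b) (b := a) ▸ zpow_mem h k)

omit [Finite P] in
theorem gp_top {Γ : Type*} [Group Γ] {φ : P →* Γ} (hφ : Function.Surjective φ) {H : Subgroup Γ} (h : H.comap φ = ⊤) : H = ⊤ :=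
  (eq_top_iff' _).2 fun y => by obtain ⟨g, rfl⟩ := hφ y; exact h.ge (mem_top g)

theorem gp_W (hP : IsPGroup 2 P) (h : (zpowers x).index = 4) {Γ : Type u} [Group Γ] {φ : P →* Γ} (hφ : Function.Surjective φ)
    (hk : φ.ker ≤ zpowers x) {s t : P} {σ : Γ} {K : Subgroup P} (xK : x ∈ K) (sK : s ∈ K) (sN : s ∉ zpowers x) (tK : t ∉ K)
    (X2 : φ x * φ x ≠ 1) (S2 : φ s * φ s = 1) (XS : φ x * φ s = φ s * φ x) (TS : φ t * φ s = φ s * φ t) (T2 : φ t * φ t = 1)
    (hσ : σ = 1 ∨ σ = φ s) (TX : φ t * φ x * φ t = (φ x)⁻¹ * σ) : ∃ X S T σ m, W (⊤ : Subgroup Γ) X S T σ m := by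
  obtain ⟨n, e⟩ := (hP.of_surjective φ hφ).exists_orderOf_eq_pow (φ x)
  have c : ∀ {H : Subgroup P} {g}, x ∈ H → φ g ∈ H.map φ → g ∈ H := fun m i =>
    (comap_map_eq_self (hk.trans (zpowers_le.2 m))).le i
  obtain ⟨m, rfl⟩ : ∃ m, n = m + 2 := by
    refine ⟨n - 2, ?_⟩
    by_contra k
    refine X2 (by rw [← pow_two, ← orderOf_dvd_iff_pow_eq_one, e]; exact pow_dvd_pow 2 (show n ≤ 1 by omega))
  exact ⟨_, _, _, _, m, e, S2, fun i => sN (c (mem_zpowers x) (by rwa [MonoidHom.map_zpowers])), XS, TS, T2,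
    fun i => tK (c xK (sup_le (zpowers_le.2 (mem_map_of_mem φ xK)) (zpowers_le.2 (mem_map_of_mem φ sK)) i)), hσ, TX,
    gp_top hφ (gp_gen h (mem_sup_left (W.XA _ _)) (mem_sup_left (W.SA _ _)) (mem_sup_right (mem_zpowers _)) xK sK sN tK)⟩

/-- The conclusion for the central element `z`: every image of `P` with kernel `⟨z⟩` is
metacyclic or of type `W`. -/
def Good (z : P) : Prop := z ∈ center P ∧
  ∀ (Γ : Type u) [Group Γ] (φ : P →* Γ), Function.Surjective φ → φ.ker = zpowers z →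
    IsMetacyclic Γ ∨ ∃ X S T σ m, W (⊤ : Subgroup Γ) X S T σ m

/-- A finite group with a cyclic subgroup of index `≤ 2` is metacyclic
(`isMetacyclic_iff_exists`: index one `a = b = x`; index two normal, any `b ∉ ⟨x⟩`). -/
theorem meta_of_index_le (h : (zpowers x).index ≤ 2) : IsMetacyclic P := by
  rw [PGroup.isMetacyclic_iff_exists]
  by_cases c : ∃ b, b ∉ zpowers x
  · obtain ⟨b, n⟩ := c
    have a := gp_half (le_sup_left : zpowers x ≤ zpowers x ⊔ zpowers b) (mem_sup_right (mem_zpowers b)) n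
    have := (zpowers x ⊔ zpowers b).index_ne_zero_of_finite
    have := normal_of_index_eq_two (H := zpowers x) (by omega)
    exact ⟨x, b, by simp [normalizer_eq_top], index_eq_one.1 (by omega)⟩
  · push Not at c
    exact ⟨x, x, le_normalizer (mem_zpowers x), by rw [sup_idem, (eq_top_iff' _).2 c]⟩

theorem gp_good {z g : P} (hz : z ∈ center P) (h : (zpowers g ⊔ zpowers z).index ≤ 2) : Good z :=
  ⟨hz, fun Γ _ φ hφ k => .inl (by
    have := Finite.of_surjective φ hφ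
    refine meta_of_index_le (x := φ g) ?_
    rwa [← MonoidHom.map_zpowers, index_map, k, MonoidHom.range_eq_top.2 hφ, index_top, mul_one])⟩

/-- A central element outside `⟨x⟩`: the image of `⟨x⟩` has index `|P : ⟨x, z⟩| ≤ 2`
(`index_map_eq`-type lemmas; `⟨x⟩ < ⟨x⟩ ⊔ ⟨z⟩`, the index of the larger group is a proper divisor
of `4`). -/
theorem good_of_not_mem (h : (zpowers x).index = 4) {z : P} (hz : z ∈ center P)
    (n : z ∉ zpowers x) : Good z := by
  have := gp_half (le_sup_left : zpowers x ≤ zpowers x ⊔ zpowers z) (mem_sup_right (mem_zpowers z)) n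
  exact gp_good (g := x) hz (by omega)

/-- `N = ⟨x⟩` normal of index four, `Z(P) ≤ N`.
* If some `g` has `g² ∉ N`, then `P = N⟨g⟩` is metacyclic: `z = 1` (`isMetacyclic_of_surjective`).
  So all squares, hence (`P/N` has exponent two) all commutators lie in `N`.
* `x` central: `z = x`, the image has order four: `meta_of_index_le` (any `g ≠ 1`).
* Some `y ∈ C(x) \ N`, `x` not central.  `y² = x^k`.  `k` odd: `x ∈ ⟨y⟩`, `⟨y⟩` has index `≤ 2`,
  `z = 1`.  `k = 2j`: replace `y` by `y x^{-j}`, `y² = 1`.  Take `t ∉ C(x)`; `P = N⟨y, t⟩`.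
  `δ a = t a t⁻¹ a⁻¹ ∈ N` is multiplicative on the abelian `N⟨y⟩`; `δ x ≠ 1`, `(δ y)² = 1`, so
  `δ y ∈ ⟨δ x⟩` (a cyclic 2-group has one involution, in every nontrivial subgroup), `δ y = (δ x)^i`,
  and `y x^{-i}` is central and not in `N`: contradiction.
* `C(x) = N`.  For `g ∉ N`: `g x g⁻¹ = x^k`, `g²` centralizes `x`, `2^n ∣ (k-1)(k+1)`, so `g`
  centralizes or inverts `x²`.  The product of two elements inverting `x²` centralizes it, so there is
  `b ∉ N` centralizing `x²`; then `b x b⁻¹ = x w` with `w ∈ N`, `w² = 1`, `w ≠ 1` the involution of `N`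
  (central in `P`).  If every element centralizes `x²`, all `g ∉ N` send `x` to `x w`, so `g g' ∈ C(x) = N`
  for `g, g' ∉ N`, index two: contradiction.  So there is `a` inverting `x²` with `x⁴ ≠ 1`; `a x a⁻¹ = x⁻¹ v`,
  `v ∈ {1, w}`; `P = N⟨a, b⟩`.  `b² = x^i` and `a² = x^l` with `i, l` even (else `b`, `a ∈ C(x)`);
  `a` inverts and centralizes `x^l`, so `a² ∈ ⟨w⟩`.  `i = 2j`, `s = b x^{-j}`, `s² = w^j`,
  `s x s⁻¹ = x w`.  `a s a⁻¹ = x^q s`; squaring, `x^{2q} w^q = 1`; `q` odd gives `x^{4q} = 1`,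
  `x⁴ = 1`, so `q` is even and `x^q ∈ ⟨w⟩`.  `z = w`: `W ⊤ (φ x) (φ s) (φ a) 1 m`, the order of `φ x`
  is a power of two (`P` is a 2-group) and `φ x ² ≠ 1` as `x² ∉ ⟨w⟩`. -/
theorem good_of_normal (hP : IsPGroup 2 P) (h : (zpowers x).index = 4) (hZ : center P ≤ zpowers x)
    (hN : (zpowers x).Normal) : ∃ z : P, Good z := by
  by_cases sq : ∀ g, g * g ∈ zpowers x
  swap
  · push Not at sq
    obtain ⟨g, n⟩ := sq
    have c : Nat.card (P ⧸ zpowers x) = 2 ^ 2 := h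
    refine ⟨1, one_mem _, fun Γ _ φ hφ _ => .inl (PGroup.isMetacyclic_of_surjective φ hφ ⟨_, hN, inferInstance,
      isCyclic_of_orderOf_eq_card (QuotientGroup.mk g) ?_⟩)⟩
    rw [c]
    exact orderOf_eq_prime_pow (fun e => n ((QuotientGroup.eq_one_iff _).1 (by simpa [pow_two] using e))) (c ▸ pow_card_eq_one')
  have cm : ∀ a b : P, a * b * a⁻¹ * b⁻¹ ∈ zpowers x := fun a b => by
    convert mul_mem (mul_mem (sq (a * b)) (hN.conj_mem _ (sq a⁻¹) b⁻¹)) (sq b⁻¹) using 1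
    group
  have cN : ∀ {g a : P}, g * x = x * g → a ∈ zpowers x → Commute g a := by
    rintro g _ e ⟨k, rfl⟩
    exact Commute.zpow_right e k
  by_cases xc : x ∈ center P
  · obtain ⟨g, n, -⟩ : ∃ g, g ∉ zpowers x ∧ _ := by simpa using gp_two h
    have := gp_half (le_sup_right : zpowers x ≤ zpowers g ⊔ zpowers x) (mem_sup_left (mem_zpowers g)) n
    exact ⟨x, gp_good (g := g) xc (by omega)⟩
  by_cases C : ∀ g, g * x = x * g → g ∈ zpowers x
  swap
  · push Not at C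
    obtain ⟨y, c, n⟩ := C
    obtain ⟨k, e⟩ := sq y
    rcases Int.even_or_odd k with ⟨j, rfl⟩ | o
    swap
    · have := gp_half (zpowers_le.2 (zpowers_le.2 (show x ^ k ∈ zpowers y from (show x ^ k = _ from e) ▸ mul_mem (mem_zpowers y) (mem_zpowers y))
        (gp_odd hP o x))) (mem_zpowers y) n
      exact ⟨1, gp_good (g := y) (one_mem _) (by rw [zpowers_one_eq_bot, sup_bot_eq]; omega)⟩
    exfalso
    obtain ⟨y, c, n, y2⟩ : ∃ y, Commute y x ∧ y ∉ zpowers x ∧ y * y = 1 := ⟨y * x ^ (-j), Commute.mul_left c (Commute.self_zpow x _).symm,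
      fun i => n ((mul_mem_cancel_right (zpow_mem (mem_zpowers x) _)).1 i), by
        rw [← pow_two, (Commute.zpow_right c _).mul_pow, pow_two, ← show x ^ (j + j) = y * y from e]; group⟩
    obtain ⟨t, nt⟩ : ∃ t, t * x ≠ x * t := by simpa [mem_center_iff] using xc
    obtain ⟨w, m, w2, w1⟩ := gp_invol hP (d := t * x * t⁻¹ * x⁻¹) fun e => nt (by
      rwa [mul_inv_eq_one, mul_inv_eq_iff_eq_mul] at e)
    have d : t * y * t⁻¹ * y⁻¹ * (t * y * t⁻¹ * y⁻¹) = 1 := by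
      have := (cN c (cm t y)).symm.mul_pow 2
      simp only [inv_mul_cancel_right, pow_two, y2, conj_mul] at this
      simpa using this.symm
    obtain ⟨i, e⟩ : t * y * t⁻¹ * y⁻¹ ∈ zpowers (t * x * t⁻¹ * x⁻¹) :=
      (gp_inv (cm t y) (zpowers_le.2 (cm t x) m) d w2 w1).elim (fun e => e ▸ one_mem _) fun e => e ▸ m
    have f : t * (y * x ^ (-i)) * t⁻¹ = y * x ^ (-i) := by
      rw [← conj_mul, ← conj_zpow, ← inv_mul_cancel_right (t * x * t⁻¹) x, (cN rfl (cm t x)).symm.mul_zpow,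
        ← inv_mul_cancel_right (t * y * t⁻¹) y, ← (cN c (cm t y)).eq, ← show _ = t * y * t⁻¹ * y⁻¹ from e]
      group
    refine n ((mul_mem_cancel_right (zpow_mem (mem_zpowers x) (-i))).1 (hZ (centralizer_eq_top_iff_subset.1
      (gp_gen h (H := centralizer {y * x ^ (-i)}) (K := centralizer {x}) (a := y) (b := t) ?_ ?_ ?_ ?_ ?_ n ?_) rfl))) <;>
      rw [mem_centralizer_singleton_iff]
    exacts [(Commute.mul_right c.symm (Commute.self_zpow x _)).eq, (Commute.mul_right rfl (c.zpow_right _)).eq,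
      mul_inv_eq_iff_eq_mul.1 f, c, nt]
  have ci : ∀ g : P, g * (x * x) * g⁻¹ = x * x ∨ g * (x * x) * g⁻¹ = (x * x)⁻¹ := fun g => by
    obtain ⟨k, e⟩ := hN.conj_mem x (mem_zpowers x) g
    replace e : x ^ k = g * x * g⁻¹ := e
    obtain ⟨n, o⟩ := hP.exists_orderOf_eq_pow x
    have : x ^ ((k - 1) * (k + 1)) = 1 := by
      rw [show (k - 1) * (k + 1) = k * k - 1 by ring, zpow_sub, zpow_mul, e, conj_zpow, e, zpow_one, mul_inv_eq_one,
        show g * (g * x * g⁻¹) * g⁻¹ = g * g * x * (g * g)⁻¹ by group, ← (cN rfl (sq g)).eq, mul_inv_cancel_right]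
    rw [← orderOf_dvd_iff_zpow_eq_one, o] at this
    have := gp_num (n := n) (by exact_mod_cast this)
    rw [← conj_mul, ← e]
    have o' : ∀ {a : ℤ}, (2 : ℤ) ^ n ∣ a → x ^ a = 1 := fun d => orderOf_dvd_iff_zpow_eq_one.1 (by rw [o]; exact_mod_cast d)
    refine this.imp (fun d => ?_) fun d => ?_
    · rw [← one_mul (x * x), ← o' d]; group
    · rw [← one_mul (x * x)⁻¹, ← o' d]; group
  obtain ⟨b, bN, b2⟩ : ∃ b ∉ zpowers x, b * (x * x) * b⁻¹ = x * x := by
    by_contra! c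
    refine gp_two h fun g n g' n' => by_contra fun m => c _ m ?_
    rw [show g * g' * (x * x) * (g * g')⁻¹ = g * (g' * (x * x) * g'⁻¹) * g⁻¹ by group, (ci g').resolve_left (c _ n'),
      ← conj_inv, (ci g).resolve_left (c _ n), inv_inv]
  have xx : ∀ g : P, x⁻¹ * (g * x * g⁻¹) ∈ zpowers x := fun g => mul_mem (inv_mem (mem_zpowers x)) (hN.conj_mem _ (mem_zpowers x) g)
  have k2 : ∀ g : P, g * (x * x) * g⁻¹ = x * x → x⁻¹ * (g * x * g⁻¹) * (x⁻¹ * (g * x * g⁻¹)) = 1 := fun g e => by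
    rw [← pow_two, (cN rfl (hN.conj_mem _ (mem_zpowers x) g)).inv_left.mul_pow, conj_pow, pow_two x, e]; group
  have k1 : ∀ g ∉ zpowers x, x⁻¹ * (g * x * g⁻¹) ≠ 1 := fun g n e => n (C g (by
    rwa [inv_mul_eq_one, eq_comm, mul_inv_eq_iff_eq_mul] at e))
  obtain ⟨w, wN, w2, w1, bx⟩ : ∃ w ∈ zpowers x, w * w = 1 ∧ w ≠ 1 ∧ b * x * b⁻¹ = x * w := ⟨_, xx b, k2 b b2, k1 b bN, by group⟩
  have wc : ∀ g : P, g * w * g⁻¹ = w := fun g =>
    (gp_inv (hN.conj_mem _ wN g) wN (by rw [conj_mul, w2, mul_one, mul_inv_cancel]) w2 w1).resolve_left (by simpa using w1)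
  obtain ⟨a, aK⟩ : ∃ a, a * (x * x) * a⁻¹ ≠ x * x := by
    by_contra! c
    have k : ∀ g ∉ zpowers x, g * x * g⁻¹ = x * w := fun g n => by
      rw [← (gp_inv (xx g) wN (k2 g (c g)) w2 w1).resolve_left (k1 g n)]; group
    refine gp_two h fun g n g' n' => C _ (mul_inv_eq_iff_eq_mul.1 ?_)
    rw [show g * g' * x * (g * g')⁻¹ = g * (g' * x * g'⁻¹) * g⁻¹ by group, k g' n', ← conj_mul, k g n, wc, mul_assoc, w2, mul_one]
  have a2 := (ci a).resolve_left aK
  have x4 : x * x * (x * x) ≠ 1 := fun e => aK (a2.trans (inv_eq_of_mul_eq_one_left e))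
  have ev : ∀ g ∉ zpowers x, ∃ j : ℤ, g * g = x ^ (j + j) := fun g n => by
    obtain ⟨k, e⟩ := sq g
    rcases Int.even_or_odd k with ⟨j, rfl⟩ | o
    · exact ⟨j, e.symm⟩
    · obtain ⟨l, f⟩ := gp_odd hP o x
      replace f : (g * g) ^ l = x := by rw [← show x ^ k = g * g from e]; exact f
      exact absurd (C g (f ▸ ((Commute.refl g).mul_right (.refl g)).zpow_right l)) n
  obtain ⟨j, bj⟩ := ev b bN
  obtain ⟨l, al⟩ := ev a fun i => aK (mul_inv_eq_iff_eq_mul.2 ((cN rfl i).mul_left (cN rfl i)).eq.symm)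
  have xw : Commute x w := cN rfl wN
  obtain ⟨s, sN, sx, s2⟩ : ∃ s ∉ zpowers x, s * x * s⁻¹ = x * w ∧ s * s ∈ zpowers w :=
    ⟨b * x ^ (-j), fun i => bN ((mul_mem_cancel_right (zpow_mem (mem_zpowers x) _)).1 i), by rw [← bx]; group, -j, by
      rw [show b * x ^ (-j) * (b * x ^ (-j)) = (b * x * b⁻¹) ^ (-j) * (b * b) * x ^ (-j) by rw [conj_zpow]; simp only [mul_assoc, inv_mul_cancel_left], bx, bj,
        xw.symm.eq.symm, xw.symm.mul_zpow]
      group⟩
  obtain ⟨q, e⟩ := cm a s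
  replace e : a * s * a⁻¹ = x ^ q * s := mul_inv_eq_iff_eq_mul.1 (show x ^ q = _ from e).symm
  have f : x ^ q * x ^ q * w ^ q = 1 := by
    obtain ⟨r, s2⟩ := s2
    have : a * (s * s) * a⁻¹ = s * s := by rw [← show w ^ r = _ from s2, ← conj_zpow, wc]
    rw [← conj_mul, e, show x ^ q * s * (x ^ q * s) = x ^ q * (s * x * s⁻¹) ^ q * (s * s) by
      rw [conj_zpow]; simp only [mul_assoc, inv_mul_cancel_left], sx,
      xw.mul_zpow, mul_eq_right, ← mul_assoc] at this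
    exact this
  have wq : ∀ j : ℤ, w ^ (j + j) = 1 := fun j => by rw [← two_mul, zpow_mul, zpow_two, w2, one_zpow]
  have q2 : x ^ q * x ^ q = 1 := by
    rcases Int.even_or_odd q with ⟨j, rfl⟩ | o
    · rwa [wq, mul_one] at f
    · have := gp_odd hP o (x * x * (x * x))
      rw [mul_eq_one_iff_eq_inv] at f
      rw [(Commute.refl _).mul_zpow, (Commute.refl x).mul_zpow, f, ← _root_.mul_inv_rev, ← zpow_add, wq, inv_one,
        zpowers_one_eq_bot] at this
      exact absurd this x4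
  refine ⟨w, mem_center_iff.2 fun g => mul_inv_eq_iff_eq_mul.1 (wc g), fun Γ _ φ hφ k => .inr ?_⟩
  have φw : φ w = 1 := k.ge (mem_zpowers w)
  have φ1 : ∀ {v}, v ∈ zpowers x → v * v = 1 → φ v = 1 := fun m e => (gp_inv m wN e w2 w1).elim (fun e => e ▸ map_one φ) fun e => e ▸ φw
  have T2 : φ a * φ a = 1 := by
    rw [← map_mul]
    refine φ1 (sq a) ?_
    have : a * (a * a) * a⁻¹ = (a * a)⁻¹ := by
      rw [al, zpow_add, ← (Commute.refl x).mul_zpow, ← conj_zpow, a2, inv_zpow]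
    exact mul_eq_one_iff_eq_inv.2 (by rw [← this]; group)
  refine gp_W hP h hφ (k ▸ zpowers_le.2 wN) (s := s) (t := a) (σ := 1) (K := centralizer {x * x})
    (mem_centralizer_singleton_iff.2 (mul_assoc ..).symm) (mem_centralizer_singleton_iff.2 (mul_inv_eq_iff_eq_mul.1 ?_)) sN
    (fun i => aK (mul_inv_eq_iff_eq_mul.2 (mem_centralizer_singleton_iff.1 i))) (fun e => x4 ?_) ?_ ?_ ?_ T2 (.inl rfl) ?_
  · rw [← conj_mul, sx, ← pow_two, xw.mul_pow, pow_two w, w2, mul_one, pow_two]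
  · obtain ⟨r, e⟩ := k.le (show φ (x * x) = 1 by rwa [map_mul])
    rw [← show w ^ r = _ from e, ← zpow_add, wq]
  · rw [← map_mul]; exact k.ge s2
  · rw [← map_mul, ← map_mul, mul_inv_eq_iff_eq_mul.1 sx, map_mul, map_mul, map_mul, φw, mul_one]
  · rw [← map_mul, mul_inv_eq_iff_eq_mul.1 e, map_mul, map_mul, φ1 (zpow_mem (mem_zpowers x) q) q2, one_mul]
  · have := φ1 (mul_mem (mem_zpowers x) (hN.conj_mem _ (mem_zpowers x) a)) (by
      rw [← pow_two, (cN rfl (hN.conj_mem _ (mem_zpowers x) a)).mul_pow, conj_pow, pow_two x, a2, mul_inv_cancel])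
    rw [map_mul, map_mul, map_mul, map_inv, inv_eq_of_mul_eq_one_left T2] at this
    rw [mul_one, eq_inv_of_mul_eq_one_right this]

/-- `N = ⟨x⟩` not normal, of index four, `Z(P) ≤ N`, so `Z(P) = ⟨z⟩`.  `M = N_P(N) > N`
(`normalizerCondition_of_isNilpotent`) has index two, `|M : N| = 2`.  For `t ∉ M`:
`x' = t x t⁻¹ ∈ M \ N`, `(x t)² = x x' t²`, so replacing `t` by `x t` we get `t² ∈ N`; then `t²`
commutes with `x` and `t`, `P = ⟨x, t⟩`, so `t² ∈ Z(P)`.  `⟨x'⟩ = t N t⁻¹` also has index two in `M`: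
`x² ∈ ⟨x'⟩`, `x'² ∈ N`; so `x²`, `x'²` commute with `x, x'`, and `x'² x²` commutes with `t`
(`t x'² t⁻¹ = x²`): `x'² x² ∈ Z(P)`.  `v = x' x x'⁻¹ x⁻¹ ∈ N ⊓ ⟨x'⟩` has `v² = 1`; `t v t⁻¹ ∈ N`
has the same order, so `t v t⁻¹ = v` (one involution in `N`), `v ∈ Z(P)`.  In the image
`X = φ x`, `S = φ (x' x)`, `T = φ t`: `X, φ x'` commute, `S² = 1`, `S ∉ ⟨X⟩` (kernel `≤ N`),
`T S T = X · φ x' = S`, `T X T = φ x' = X⁻¹ S`, `T ∉ ⟨X, S⟩ ≤ φ M`.  If `X² ≠ 1`: `W ⊤ X S T S m`.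
If `X² = 1`: `(X T)² = X · φ x' = S`, `T` normalizes `⟨X T⟩` (`T (X T) T = T X = (X T)⁻¹`) and
`⟨X T⟩ ⊔ ⟨T⟩ = ⊤`: metacyclic. -/
theorem good_of_not_normal (hP : IsPGroup 2 P) (h : (zpowers x).index = 4)
    (hZ : center P ≤ zpowers x) (hN : ¬ (zpowers x).Normal) : ∃ z : P, Good z := by
  have := hP.isNilpotent
  obtain ⟨z, hz⟩ : ∃ z, center P = zpowers z := ((le_zpowers_iff _ _).1 hZ).elim fun n e => ⟨_, e⟩
  obtain ⟨g, gM, gN⟩ := SetLike.exists_of_lt (Group.normalizerCondition_of_isNilpotent (zpowers x)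
    (lt_top_iff_ne_top.2 fun e => by rw [e, index_top] at h; omega))
  have i2 : (normalizer (zpowers x : Set P)).index = 2 := by
    have := gp_half le_normalizer gM gN
    have := (normalizer (zpowers x : Set P)).index_ne_zero_of_finite
    have : (normalizer (zpowers x : Set P)).index ≠ 1 := fun e => hN (normalizer_eq_top_iff.1 (index_eq_one.1 e))
    omega
  have xM : x ∈ normalizer (zpowers x : Set P) := le_normalizer (mem_zpowers x)
  have nM := normal_of_index_eq_two i2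
  have r2 : ∀ {a b : P}, a ∈ normalizer (zpowers x : Set P) → b ∈ normalizer (zpowers x : Set P) →
      (a * b ∈ zpowers x ↔ (a ∈ zpowers x ↔ b ∈ zpowers x)) := fun {a b} ha hb =>
    mul_mem_iff_of_index_two (H := (zpowers x).subgroupOf (normalizer (zpowers x : Set P))) (by
      have := relIndex_mul_index (le_normalizer (H := zpowers x))
      rw [i2, h] at this
      exact (by omega : (zpowers x).relIndex (normalizer (zpowers x : Set P)) = 2)) (a := ⟨a, ha⟩) (b := ⟨b, hb⟩)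
  obtain ⟨t, tM, t2⟩ : ∃ t ∉ normalizer (zpowers x : Set P), t * t ∈ zpowers x := by
    obtain ⟨t, tM, -⟩ := index_eq_two_iff_exists_notMem_and.1 i2
    by_cases c : t * t ∈ zpowers x
    · exact ⟨t, tM, c⟩
    refine ⟨x * t, fun i => tM ((mul_mem_cancel_left xM).1 i), ?_⟩
    rw [show x * t * (x * t) = x * (t * x * t⁻¹ * (t * t)) by group]
    exact mul_mem (mem_zpowers x) ((r2 (nM.conj_mem _ xM t) (mul_self_mem_of_index_two i2 t)).2
      (iff_of_false (fun i => tM (gp_norm i)) c))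
  obtain ⟨y, ey⟩ : ∃ y, y = t * x * t⁻¹ := ⟨_, rfl⟩
  have yM : y ∈ normalizer (zpowers x : Set P) := ey ▸ nM.conj_mem _ xM t
  have yN : y ∉ zpowers x := fun i => tM (gp_norm (ey ▸ i))
  have gen : ∀ {H : Subgroup P}, x ∈ H → t ∈ H → H = ⊤ := fun a b =>
    gp_gen h a (ey ▸ mul_mem (mul_mem b a) (inv_mem b)) b xM yM yN tM
  have cen : ∀ {c : P}, x * c = c * x → t * c * t⁻¹ = c → c ∈ zpowers z := fun {c} a b =>
    hz ▸ centralizer_eq_top_iff_subset.1 (gen (H := centralizer {c}) (mem_centralizer_singleton_iff.2 a)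
      (mem_centralizer_singleton_iff.2 (mul_inv_eq_iff_eq_mul.1 b))) rfl
  have cN : ∀ {a : P}, a ∈ zpowers x → Commute x a := by
    rintro _ ⟨k, rfl⟩
    exact Commute.self_zpow x k
  have ty : t * y * t⁻¹ = x := by
    rw [ey, show t * (t * x * t⁻¹) * t⁻¹ = t * t * x * (t * t)⁻¹ by group, ← (cN t2).eq, mul_inv_cancel_right]
  have c1 : Commute x (y * y) := cN ((r2 yM yM).2 Iff.rfl)
  have c2 : Commute y (x * x) := by
    have := c1.map (MulAut.conj t)
    rwa [map_mul, MulAut.conj_apply, MulAut.conj_apply, ← ey, ty] at this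
  have vN : y * x * y⁻¹ * x⁻¹ ∈ zpowers x := mul_mem ((mem_normalizer_iff.1 yM x).1 (mem_zpowers x)) (inv_mem (mem_zpowers x))
  have v2 : y * x * y⁻¹ * x⁻¹ * (y * x * y⁻¹ * x⁻¹) = 1 := by
    have := (cN vN).symm.mul_pow 2
    rw [inv_mul_cancel_right, conj_pow, pow_two x, c2.eq, mul_inv_cancel_right, right_eq_mul, pow_two] at this
    exact this
  have v := cen (cN vN).eq (by
    rw [← conj_mul, ← conj_mul, ← conj_mul, ← conj_inv, ← conj_inv, ty, ← ey]
    exact (eq_inv_of_mul_eq_one_left v2).symm ▸ by group)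
  have c := cen (c := y * y * (x * x)) (c1.mul_right ((Commute.refl x).mul_right (.refl x))).eq (by
    rw [← conj_mul, ← conj_mul, ← conj_mul, ty, ← ey]
    exact (c1.mul_left c1).eq)
  refine ⟨z, hz.ge (mem_zpowers z), fun Γ _ φ hφ k => ?_⟩
  have T2 : φ t * φ t = 1 := by
    rw [← map_mul]
    exact k.ge (cen (cN t2).eq (by group))
  have Ti := inv_eq_of_mul_eq_one_left T2
  have XY : Commute (φ y) (φ x) := by
    have := k.ge v
    rwa [MonoidHom.mem_ker, map_mul, map_mul, map_mul, map_inv, map_inv, mul_inv_eq_one, mul_inv_eq_iff_eq_mul] at this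
  have TX : φ t * φ x * φ t = φ y := by rw [ey, map_mul, map_mul, map_inv, Ti]
  by_cases X2 : φ x * φ x = 1
  · have := Finite.of_surjective φ hφ
    refine .inl (PGroup.isMetacyclic_iff_exists.2 ⟨φ x * φ t, φ t, gp_norm ?_, gp_top hφ (gen ?_ (mem_sup_right (mem_zpowers _)))⟩)
    · rw [← inv_mem_iff, show (φ t * (φ x * φ t) * (φ t)⁻¹)⁻¹ = (φ x)⁻¹ * (φ t)⁻¹ by group, Ti, inv_eq_of_mul_eq_one_left X2]
      exact mem_zpowers _
    · exact (mul_mem_cancel_right (mem_sup_right (mem_zpowers (φ t)))).1 (mem_sup_left (mem_zpowers _))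
  refine .inr (gp_W hP h hφ (k ▸ hz ▸ hZ) (s := y * x) (σ := φ (y * x)) xM (mul_mem yM xM)
    (fun i => yN ((mul_mem_cancel_right (mem_zpowers x)).1 i)) tM X2 ?_ ?_ ?_ T2 (.inr rfl) ?_)
  · rw [map_mul, ← pow_two, XY.mul_pow, pow_two, pow_two, ← map_mul, ← map_mul, ← map_mul]
    exact k.ge c
  · rw [map_mul]
    exact (XY.symm.mul_right (.refl _)).eq
  · rw [← mul_inv_eq_iff_eq_mul, ← map_inv, ← map_mul, ← map_mul, ← conj_mul, ty, ← ey, map_mul, map_mul, XY.eq]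
  · rw [TX, map_mul, XY.eq, inv_mul_cancel_left]

theorem exists_good (hP : IsPGroup 2 P) (h : (zpowers x).index ≤ 4) : ∃ z : P, Good z := by
  by_cases h2 : (zpowers x).index ≤ 2
  · exact ⟨1, one_mem _, fun Γ _ φ hφ _ =>
      .inl (PGroup.isMetacyclic_of_surjective φ hφ (meta_of_index_le h2))⟩
  have h4 : (zpowers x).index = 4 := by
    obtain ⟨k, hk⟩ := hP.index (zpowers x)
    rcases k with _ | _ | _ | k <;> simp only [hk, pow_succ] at h h2 ⊢ <;> omega
  by_cases hZ : center P ≤ zpowers x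
  · by_cases hN : (zpowers x).Normal
    exacts [good_of_normal hP h4 hZ hN, good_of_not_normal hP h4 hZ hN]
  · obtain ⟨z, hz, n⟩ := SetLike.not_le_iff_exists.1 hZ
    exact ⟨z, good_of_not_mem h4 hz n⟩

end Cfsg.Lib.CY4
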